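import Mathlib
import Cfsg.Prelude.Def_SubgroupEmbedding
import Cfsg.Prelude.Def_Local

set_option autoImplicit false

namespace Cfsg.Agent.Lib.Helper24.Sdk

universe u

/-- the hypotheses on a minimal counterexample `(G, V)` to the Sidki pair problem -/
structure Ctx {G : Type u} [Group G] [Finite G] (V : Subgroup G) : Prop where
  comm : ∀ a ∈ V, ∀ b ∈ V, a * b = b * a
  sq : ∀ a ∈ V, a ^ 2 = 1
  ne : V ≠ ⊥
  sp : Cfsg.IsSidkiPair V
  o2 : ∀ T : Subgroup G, T.Normal → IsPGroup 2 T → V ⊓ T = ⊥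
  min : ∀ (H : Type u) [Group H] [Finite H] (W : Subgroup H), Nat.card H < Nat.card G →
    Cfsg.IsElementaryAbelian 2 W → W ≠ ⊥ → Cfsg.IsSidkiPair W → W ⊓ Cfsg.pCore 2 H ≠ ⊥

/-- `T` is normalised by `X` -/
def Nz {G : Type*} [Group G] (X T : Subgroup G) : Prop := ∀ x ∈ X, ∀ y ∈ T, x * y * x⁻¹ ∈ T

/-- `X` has no nontrivial normal `2`-subgroup -/
def O2f {G : Type*} [Group G] (X : Subgroup G) : Prop :=
  ∀ T : Subgroup G, T ≤ X → IsPGroup 2 T → Nz X T → T = ⊥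

end Cfsg.Agent.Lib.Helper24.Sdk
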