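import Mathlib
import Cfsg.Agent.Lib.Helper24.Sdk.Defs
import Cfsg.Agent.Lib.Helper53.Basic

set_option autoImplicit false

namespace Cfsg.Agent.Lib.Helper24.Sdk

universe u

variable {G : Type u} [Group G] [Finite G] {V : Subgroup G}

/-- MIN -/
theorem min_sub (hc : Ctx V) (X W : Subgroup G) (hX : X ≠ ⊤) (hWX : W ≤ X) (hWV : W ≤ V)
    (hW : W ≠ ⊥) (hT : ∀ T : Subgroup G, T ≤ X → IsPGroup 2 T → Nz X T → W ⊓ T = ⊥) :
    ∃ v ∈ W, ∃ h ∈ X, Odd (orderOf h) ∧ v * h * v⁻¹ = h⁻¹ ∧ ∀ w ∈ W, w ≠ 1 → w * h ≠ h * w := by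
  by_contra hcon
  push Not at hcon
  have hcard : Nat.card X < Nat.card G :=
    lt_of_le_of_ne (Subgroup.card_le_card_group X) (fun h => hX (Subgroup.eq_top_of_card_eq X h))
  have hW' : Cfsg.IsElementaryAbelian 2 (W.subgroupOf X) := by
    constructor
    · exact ⟨⟨fun a b => Subtype.ext (Subtype.ext
        (hc.comm a.1.1 (hWV (Subgroup.mem_subgroupOf.mp a.2)) b.1.1
          (hWV (Subgroup.mem_subgroupOf.mp b.2))))⟩⟩
    · intro a ha
      exact Subtype.ext (hc.sq a.1 (hWV (Subgroup.mem_subgroupOf.mp ha)))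
  have hW1 : W.subgroupOf X ≠ ⊥ := by
    intro h
    apply hW
    rw [eq_bot_iff]
    intro w hw
    have : (⟨w, hWX hw⟩ : X) ∈ W.subgroupOf X := Subgroup.mem_subgroupOf.mpr hw
    rw [h, Subgroup.mem_bot] at this
    exact Subgroup.mem_bot.mpr (congrArg Subtype.val this)
  have hsp : Cfsg.IsSidkiPair (W.subgroupOf X) := by
    intro h v hv hodd hinv
    obtain ⟨w, hw, hw1, hwh⟩ := hcon v.1 (Subgroup.mem_subgroupOf.mp hv) h.1 h.2
      (by rwa [Subgroup.orderOf_coe]) (congrArg Subtype.val hinv)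
    exact ⟨⟨w, hWX hw⟩, Subgroup.mem_subgroupOf.mpr hw, fun h => hw1 (congrArg Subtype.val h),
      Subtype.ext hwh⟩
  have h := hc.min X (W.subgroupOf X) hcard hW' hW1 hsp
  apply h
  have hn := Cfsg.Agent.Lib.Helper53.pCore_normal 2 X
  have hT' := hT ((Cfsg.pCore 2 X).map X.subtype) (Subgroup.map_subtype_le _)
    ((Cfsg.Agent.Lib.Helper53.pCore_isPGroup 2 X).map _) (by
      intro x hx z hz
      obtain ⟨y, hy, rfl⟩ := Subgroup.mem_map.mp hz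
      exact Subgroup.mem_map.mpr ⟨⟨x, hx⟩ * y * ⟨x, hx⟩⁻¹, hn.conj_mem y hy ⟨x, hx⟩, rfl⟩)
  rw [eq_bot_iff]
  intro x hx
  have h5 : x.1 ∈ W ⊓ (Cfsg.pCore 2 X).map X.subtype :=
    ⟨Subgroup.mem_subgroupOf.mp hx.1, Subgroup.mem_map.mpr ⟨x, hx.2, rfl⟩⟩
  rw [hT'] at h5
  exact Subgroup.mem_bot.mpr (Subtype.ext (Subgroup.mem_bot.mp h5))

end Cfsg.Agent.Lib.Helper24.Sdk
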