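import Mathlib
import Cfsg.Agent.Lib.Helper24.Sdk.Defs

set_option autoImplicit false

namespace Cfsg.Agent.Lib.Helper24.Sdk

universe u

variable {G : Type u} [Group G] [Finite G] {V : Subgroup G}

theorem nz_le_normalizer {M W : Subgroup G} (hnorm : Nz W M) :
    W ≤ Subgroup.normalizer (M : Set G) := by
  intro w hw
  rw [Subgroup.mem_normalizer_iff]
  intro y
  constructor
  · intro hy; exact hnorm w hw y hy
  · intro hy
    have := hnorm w⁻¹ (W.inv_mem hw) _ hy
    simpa [mul_assoc] using this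

theorem mem_sup_nz {M W : Subgroup G} (hnorm : Nz W M) {x : G} (hx : x ∈ M ⊔ W) :
    ∃ m ∈ M, ∃ w ∈ W, x = m * w := by
  have h := Subgroup.coe_mul_of_right_le_normalizer_left M W (nz_le_normalizer hnorm)
  have hx' : x ∈ ((M ⊔ W : Subgroup G) : Set G) := hx
  rw [h] at hx'
  obtain ⟨m, hm, w, hw, rfl⟩ := Set.mem_mul.mp hx'
  exact ⟨m, hm, w, hw, rfl⟩

theorem nz_sup {X A B : Subgroup G} (hA : Nz X A) (hB : Nz X B) : Nz X (A ⊔ B) := by
  intro x hx y hy
  have hle : A ⊔ B ≤ (A ⊔ B).comap (MulAut.conj x).toMonoidHom := by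
    apply sup_le
    · intro a ha
      rw [Subgroup.mem_comap]
      exact (le_sup_left : A ≤ A ⊔ B) (hA x hx a ha)
    · intro b hb
      rw [Subgroup.mem_comap]
      exact (le_sup_right : B ≤ A ⊔ B) (hB x hx b hb)
  exact hle hy

theorem inv_eq_self_of_mem (hc : Ctx V) {w : G} (hw : w ∈ V) : w⁻¹ = w := by
  rw [inv_eq_iff_mul_eq_one, ← pow_two]; exact hc.sq w hw

/-- SQ : squares of elements of `M ⊔ W` lie in `M` -/
theorem sq_mem (hc : Ctx V) (M W : Subgroup G) (hWV : W ≤ V) (hnorm : Nz W M) (x : G)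
    (hx : x ∈ M ⊔ W) : x ^ 2 ∈ M := by
  obtain ⟨m, hm, w, hw, rfl⟩ := mem_sup_nz hnorm hx
  have hwi : w⁻¹ = w := inv_eq_self_of_mem hc (hWV hw)
  have h1 := hnorm w hw m hm
  rw [hwi] at h1
  have : (m * w) ^ 2 = m * (w * m * w) := by
    rw [pow_two]; simp only [mul_assoc]
  rw [this]
  exact M.mul_mem hm h1

end Cfsg.Agent.Lib.Helper24.Sdk
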