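import Mathlib
import Cfsg.Agent.Lib.Helper24.Sdk.Defs
import Cfsg.Agent.Lib.Helper24.Sdk.SQ
import Cfsg.Agent.Lib.Helper24.Sdk.MIN

set_option autoImplicit false

namespace Cfsg.Agent.Lib.Helper24.Sdk

universe u

variable {G : Type u} [Group G] [Finite G] {V : Subgroup G}

/-- NSP -/
theorem nsp (hc : Ctx V) (M W : Subgroup G) (hWV : W ≤ V) (hW : W ≠ ⊥) (hnorm : Nz W M)
    (hlt : M ⊔ W ≠ ⊤) (hM2 : O2f M) (hCW : ∀ w ∈ W, (∀ x ∈ M, w * x = x * w) → w = 1) :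
    ∃ v ∈ W, ∃ h ∈ M, Odd (orderOf h) ∧ v * h * v⁻¹ = h⁻¹ ∧ ∀ w ∈ W, w ≠ 1 → w * h ≠ h * w := by
  have hT : ∀ T : Subgroup G, T ≤ M ⊔ W → IsPGroup 2 T → Nz (M ⊔ W) T → W ⊓ T = ⊥ := by
    intro T hTX hT2 hTn
    have hTM : T ⊓ M = ⊥ := by
      apply hM2 _ inf_le_right (hT2.to_le inf_le_left)
      intro x hx y hy
      exact ⟨hTn x ((le_sup_left : M ≤ M ⊔ W) hx) y hy.1,
        M.mul_mem (M.mul_mem hx hy.2) (M.inv_mem hx)⟩
    rw [eq_bot_iff]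
    intro w hw
    rw [Subgroup.mem_bot]
    apply hCW w hw.1
    intro x hx
    have h1 : w * x * w⁻¹ * x⁻¹ ∈ T ⊓ M := by
      constructor
      · have : w * x * w⁻¹ * x⁻¹ = w * (x * w⁻¹ * x⁻¹) := by group
        rw [this]
        exact T.mul_mem hw.2 (hTn x ((le_sup_left : M ≤ M ⊔ W) hx) _ (T.inv_mem hw.2))
      · exact M.mul_mem (hnorm w hw.1 x hx) (M.inv_mem hx)
    rw [hTM, Subgroup.mem_bot] at h1
    have h3 := mul_inv_eq_one.mp h1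
    exact mul_inv_eq_iff_eq_mul.mp h3
  obtain ⟨v, hv, h, hh, hodd, hinv, hcw⟩ := min_sub hc (M ⊔ W) W hlt le_sup_right hWV hW hT
  refine ⟨v, hv, h, ?_, hodd, hinv, hcw⟩
  have h2 := sq_mem hc M W hWV hnorm h hh
  obtain ⟨k, hk⟩ := hodd
  have h6 : h = (h ^ 2) ^ (k + 1) := by
    rw [← pow_mul]
    have : 2 * (k + 1) = orderOf h + 1 := by omega
    rw [this, pow_add, pow_orderOf_eq_one, one_mul, pow_one]
  rw [h6]
  exact M.pow_mem h2 _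

end Cfsg.Agent.Lib.Helper24.Sdk
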