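import Mathlib
import Cfsg.Agent.Lib.Helper24.Sdk.Defs

set_option autoImplicit false

namespace Cfsg.Agent.Lib.Helper24.Sdk

universe u

variable {G : Type u} [Group G] [Finite G] {V : Subgroup G}

/-- QSP -/
theorem qsp (hc : Ctx V) (N : Subgroup G) [N.Normal] (hVN : V ⊓ N = ⊥) :
    Cfsg.IsSidkiPair (V.map (QuotientGroup.mk' N)) := by
  intro hb vb hvb hodd hinv
  obtain ⟨v, hv, rfl⟩ := Subgroup.mem_map.mp hvb
  obtain ⟨h, rfl⟩ := QuotientGroup.mk'_surjective N hb
  have hv2 : v * v = 1 := by have := hc.sq v hv; rwa [pow_two] at this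
  have hvi : v⁻¹ = v := inv_eq_of_mul_eq_one_left hv2
  obtain ⟨g, hg⟩ : ∃ g : G, g = v * (h⁻¹ * v * h) := ⟨_, rfl⟩
  have hginv : v * g * v⁻¹ = g⁻¹ := by
    rw [hg]
    have e1 : (v * (h⁻¹ * v * h))⁻¹ = h⁻¹ * v⁻¹ * h * v⁻¹ := by group
    rw [e1, hvi]
    calc v * (v * (h⁻¹ * v * h)) * v = (v * v) * (h⁻¹ * v * h) * v := by group
      _ = h⁻¹ * v * h * v := by rw [hv2, one_mul]
  have hgim : QuotientGroup.mk' N g = (QuotientGroup.mk' N h) ^ 2 := by
    have h1 : QuotientGroup.mk' N v * (QuotientGroup.mk' N h)⁻¹ * (QuotientGroup.mk' N v)⁻¹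
        = QuotientGroup.mk' N h := by
      have := congrArg (·⁻¹) hinv
      simp only [mul_inv_rev, inv_inv] at this
      rw [mul_assoc]; exact this
    have hvi' : (QuotientGroup.mk' N v)⁻¹ = QuotientGroup.mk' N v := by
      rw [← map_inv, hvi]
    rw [hvi'] at h1
    rw [hg, map_mul, map_mul, map_mul, map_inv, pow_two]
    rw [← mul_assoc, ← mul_assoc, h1]
  have hn0 : orderOf g ≠ 0 := (orderOf_pos g).ne'
  obtain ⟨a, m, hm, hnm⟩ := Nat.exists_eq_two_pow_mul_odd hn0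
  have hord : orderOf (g ^ (2 ^ a)) = m := by
    rw [orderOf_pow_of_dvd (by positivity) (by rw [hnm]; exact dvd_mul_right _ _), hnm]
    exact Nat.mul_div_cancel_left _ (by positivity)
  have hinv' : v * g ^ (2 ^ a) * v⁻¹ = (g ^ (2 ^ a))⁻¹ := by
    rw [← conj_pow, hginv, inv_pow]
  obtain ⟨w, hw, hw1, hwc⟩ := hc.sp (g ^ (2 ^ a)) v hv (by rw [hord]; exact hm) hinv'
  refine ⟨QuotientGroup.mk' N w, Subgroup.mem_map_of_mem _ hw, ?_, ?_⟩
  · intro h1
    apply hw1
    have hwN : w ∈ N := by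
      have := (QuotientGroup.eq_one_iff (N := N) w).mp h1
      exact this
    have : w ∈ V ⊓ N := ⟨hw, hwN⟩
    rw [hVN] at this
    exact Subgroup.mem_bot.mp this
  · have hc1 : Commute (QuotientGroup.mk' N w) (((QuotientGroup.mk' N h) ^ 2) ^ (2 ^ a)) := by
      have := congrArg (QuotientGroup.mk' N) hwc
      rw [map_mul, map_mul, map_pow, hgim] at this
      exact this
    rw [← pow_mul] at hc1
    have hcop : Nat.Coprime (2 * 2 ^ a) (orderOf (QuotientGroup.mk' N h)) := by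
      have h2 : Nat.Coprime 2 (orderOf (QuotientGroup.mk' N h)) :=
        (Nat.coprime_two_left).mpr hodd
      exact Nat.Coprime.mul_left h2 (Nat.Coprime.pow_left _ h2)
    obtain ⟨j, hj⟩ := exists_pow_eq_self_of_coprime hcop
    have := hc1.pow_right j
    rw [hj] at this
    exact this

end Cfsg.Agent.Lib.Helper24.Sdk
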