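import Mathlib
import Cfsg.Agent.Lib.Helper24.Sdk.Defs
import Cfsg.Agent.Lib.Helper24.Sdk.QSP

set_option autoImplicit false

namespace Cfsg.Agent.Lib.Helper24.Sdk

universe u

variable {G : Type u} [Group G] [Finite G] {V : Subgroup G}

theorem quot_pCore_normal (p : ℕ) (H : Type*) [Group H] : (Cfsg.pCore p H).Normal := by
  unfold Cfsg.pCore
  rw [sSup_eq_iSup']
  have : ∀ i : {N : Subgroup H | N.Normal ∧ IsPGroup p N}, (i : Subgroup H).Normal :=
    fun i => i.2.1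
  infer_instance

theorem quot_pCore_isPGroup (p : ℕ) (H : Type*) [Group H] : IsPGroup p (Cfsg.pCore p H) :=
  Sylow.sSup_of_normal _ (fun _ h => h.2) (fun _ h => h.1)

/-- QUOT -/
theorem quot (hc : Ctx V) (N : Subgroup G) [N.Normal] (hVN : V ⊓ N = ⊥) (hN : N ≠ ⊥) :
    ∃ U : Subgroup G, U.Normal ∧ N ≤ U ∧ (∀ x ∈ U, ∃ k : ℕ, x ^ (2 ^ k) ∈ N) ∧
      ∃ v ∈ V, v ≠ 1 ∧ v ∈ U := by
  have hcard : Nat.card (G ⧸ N) < Nat.card G := by
    rw [Subgroup.card_eq_card_quotient_mul_card_subgroup N]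
    have h1 : 1 < Nat.card N := (Subgroup.one_lt_card_iff_ne_bot N).mpr hN
    have h0 : 0 < Nat.card (G ⧸ N) := Nat.card_pos
    nlinarith
  have hel : Cfsg.IsElementaryAbelian 2 (V.map (QuotientGroup.mk' N)) := by
    refine ⟨⟨⟨?_⟩⟩, ?_⟩
    · rintro ⟨a, ha⟩ ⟨b, hb⟩
      obtain ⟨a', ha', rfl⟩ := Subgroup.mem_map.mp ha
      obtain ⟨b', hb', rfl⟩ := Subgroup.mem_map.mp hb
      apply Subtype.ext
      show QuotientGroup.mk' N a' * QuotientGroup.mk' N b'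
        = QuotientGroup.mk' N b' * QuotientGroup.mk' N a'
      rw [← map_mul, ← map_mul, hc.comm a' ha' b' hb']
    · intro a ha
      obtain ⟨a', ha', rfl⟩ := Subgroup.mem_map.mp ha
      rw [← map_pow, hc.sq a' ha', map_one]
  have hne : V.map (QuotientGroup.mk' N) ≠ ⊥ := by
    intro h
    rw [Subgroup.map_eq_bot_iff, QuotientGroup.ker_mk'] at h
    apply hc.ne
    rw [← hVN]
    exact (inf_eq_left.mpr h).symm
  have hmin := hc.min (G ⧸ N) (V.map (QuotientGroup.mk' N)) hcard hel hne (qsp hc N hVN)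
  obtain ⟨⟨x, hx⟩, hx1'⟩ := Subgroup.ne_bot_iff_exists_ne_one.mp hmin
  have hx1 : x ≠ 1 := fun h => hx1' (Subtype.ext h)
  obtain ⟨hxV, hxP⟩ := Subgroup.mem_inf.mp hx
  obtain ⟨v, hv, rfl⟩ := Subgroup.mem_map.mp hxV
  haveI := quot_pCore_normal 2 (G ⧸ N)
  refine ⟨(Cfsg.pCore 2 (G ⧸ N)).comap (QuotientGroup.mk' N), inferInstance, ?_, ?_,
    v, hv, ?_, ?_⟩
  · intro n hn
    rw [Subgroup.mem_comap]
    have : QuotientGroup.mk' N n = 1 := (QuotientGroup.eq_one_iff (N := N) n).mpr hn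
    rw [this]; exact Subgroup.one_mem _
  · intro y hy
    rw [Subgroup.mem_comap] at hy
    obtain ⟨k, hk⟩ := quot_pCore_isPGroup 2 (G ⧸ N) ⟨_, hy⟩
    refine ⟨k, ?_⟩
    have h1 := congrArg Subtype.val hk
    simp only [Subgroup.coe_pow, Subgroup.coe_one] at h1
    rw [← map_pow] at h1
    exact (QuotientGroup.eq_one_iff (N := N) _).mp h1
  · rintro rfl
    exact hx1 (map_one _)
  · exact hxP

end Cfsg.Agent.Lib.Helper24.Sdk
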