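import Mathlib
import Cfsg.Agent.Lib.Helper24.Sdk.Defs
import Cfsg.Agent.Lib.Helper24.Sdk.QUOT

set_option autoImplicit false

namespace Cfsg.Agent.Lib.Helper24.Sdk

universe u

variable {G : Type u} [Group G] [Finite G] {V : Subgroup G}

/-- O2 -/
theorem o2_top (hc : Ctx V) : O2f (⊤ : Subgroup G) := by
  intro T _ hT2 hTn
  by_contra hT1
  have hTnorm : T.Normal := ⟨fun y hy x => hTn x trivial y hy⟩
  have hVT := hc.o2 T hTnorm hT2
  obtain ⟨U, hUn, hTU, hU2, v, hv, hv1, hvU⟩ := quot hc T hVT hT1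
  have hUp : IsPGroup 2 U := by
    intro ⟨x, hx⟩
    obtain ⟨k, hk⟩ := hU2 x hx
    obtain ⟨j, hj⟩ := hT2 ⟨x ^ 2 ^ k, hk⟩
    refine ⟨k + j, ?_⟩
    apply Subtype.ext
    have h3 : (x ^ 2 ^ k) ^ 2 ^ j = 1 := congrArg Subtype.val hj
    show x ^ 2 ^ (k + j) = 1
    rw [pow_add, pow_mul]; exact h3
  have h4 := hc.o2 U hUn hUp
  apply hv1
  have hm : v ∈ V ⊓ U := ⟨hv, hvU⟩
  rw [h4] at hm
  exact Subgroup.mem_bot.mp hm

end Cfsg.Agent.Lib.Helper24.Sdk
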