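import Mathlib
import Cfsg.Agent.Lib.Helper24.Sdk.Defs
import Cfsg.Agent.Lib.Helper24.Sdk.SQ

set_option autoImplicit false

namespace Cfsg.Agent.Lib.Helper24.Sdk

universe u

variable {G : Type u} [Group G] [Finite G] {V : Subgroup G}

/-- SUBN -/
theorem subn (X₀ X : Subgroup G) (hO : O2f X₀) (hXX₀ : X ≤ X₀) (hXn : Nz X₀ X) : O2f X := by
  intro T hTX hT2 hTn
  have hne : {S : Subgroup G | S ≤ X ∧ IsPGroup 2 S ∧ Nz X S}.Nonempty := ⟨T, hTX, hT2, hTn⟩
  obtain ⟨S, hS, hmax⟩ := WellFounded.has_min (wellFounded_gt (α := Subgroup G)) _ hne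
  have key : ∀ S' : Subgroup G, S' ≤ X → IsPGroup 2 S' → Nz X S' → S' ≤ S := by
    intro S' h1 h2 h3
    have hin : S' ⊔ S ∈ {S : Subgroup G | S ≤ X ∧ IsPGroup 2 S ∧ Nz X S} := by
      refine ⟨sup_le h1 hS.1, ?_, nz_sup h3 hS.2.2⟩
      apply IsPGroup.to_sup_of_normal_right' h2 hS.2.1
      exact h1.trans (nz_le_normalizer hS.2.2)
    by_contra hle
    apply hmax _ hin
    apply lt_of_le_of_ne le_sup_right
    intro heq
    apply hle
    rw [heq]
    exact le_sup_left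
  have hSn : Nz X₀ S := by
    intro g hg y hy
    have hle : S.map (MulAut.conj g).toMonoidHom ≤ S := by
      apply key
      · intro z hz
        obtain ⟨y, hy, rfl⟩ := Subgroup.mem_map.mp hz
        exact hXn g hg y (hS.1 hy)
      · exact hS.2.1.map _
      · intro x hx z hz
        obtain ⟨y, hy, rfl⟩ := Subgroup.mem_map.mp hz
        refine Subgroup.mem_map.mpr ⟨(g⁻¹ * x * g) * y * (g⁻¹ * x * g)⁻¹, ?_, ?_⟩
        · apply hS.2.2 _ _ y hy
          have := hXn g⁻¹ (X₀.inv_mem hg) x hx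
          simpa using this
        · show g * ((g⁻¹ * x * g) * y * (g⁻¹ * x * g)⁻¹) * g⁻¹ = x * (g * y * g⁻¹) * x⁻¹
          group
    exact hle (Subgroup.mem_map.mpr ⟨y, hy, rfl⟩)
  have hSbot : S = ⊥ := hO S (hS.1.trans hXX₀) hS.2.1 hSn
  rw [eq_bot_iff, ← hSbot]
  exact key T hTX hT2 hTn

end Cfsg.Agent.Lib.Helper24.Sdk
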