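import Mathlib
import Cfsg.Agent.Lib.Helper24.Sdk.Defs
import Cfsg.Agent.Lib.Helper24.Sdk.O2
import Cfsg.Agent.Lib.Helper24.Sdk.SUBN
import Cfsg.Agent.Lib.Helper24.Sdk.NSP

set_option autoImplicit false

namespace Cfsg.Agent.Lib.Helper24.Sdk

universe u

variable {G : Type u} [Group G] [Finite G] {V : Subgroup G}

/-- a cyclic group generated by an element of square one is a `2`-group -/
theorem ab1_zpowers_pgroup (w : G) (hw : w ^ 2 = 1) : IsPGroup 2 (Subgroup.zpowers w) := by
  rintro ⟨x, hx⟩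
  obtain ⟨k, rfl⟩ := Subgroup.mem_zpowers_iff.1 hx
  refine ⟨1, Subtype.ext ?_⟩
  change (w ^ k) ^ (2 ^ 1) = 1
  rw [pow_one, ← zpow_natCast, ← zpow_mul, mul_comm, zpow_mul, zpow_natCast, hw, one_zpow]

/-- AB1 -/
theorem ab_sup (hc : Ctx V) (A : Subgroup G) (hA : A.Normal)
    (hAc : ∀ a ∈ A, ∀ b ∈ A, a * b = b * a) : Subgroup.centralizer (A : Set G) ⊔ V = ⊤ := by
  classical
  by_contra hlt
  have hCn : (Subgroup.centralizer (A : Set G)).Normal := inferInstance
  have hC2 : O2f (Subgroup.centralizer (A : Set G)) :=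
    subn ⊤ _ (o2_top hc) le_top (fun x _ y hy => hCn.conj_mem y hy x)
  have hAC : A ≤ Subgroup.centralizer (A : Set G) := by
    intro a ha
    rw [Subgroup.mem_centralizer_iff]
    intro b hb
    exact hAc b hb a ha
  obtain ⟨v, hv, h, -, hodd, hinv, hno⟩ := nsp hc (Subgroup.centralizer (A : Set G)) V le_rfl hc.ne
    (fun x _ y hy => hCn.conj_mem y hy x) hlt hC2 (by
      intro w hw hwC
      have hwmem : w ∈ Subgroup.centralizer (A : Set G) := by
        rw [Subgroup.mem_centralizer_iff]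
        intro a ha
        exact (hwC a (hAC ha)).symm
      have hz : Subgroup.zpowers w = ⊥ := by
        apply hC2 _ (Subgroup.zpowers_le.2 hwmem) (ab1_zpowers_pgroup w (hc.sq w hw))
        intro x hx y hy
        obtain ⟨k, rfl⟩ := Subgroup.mem_zpowers_iff.1 hy
        have hcomm : Commute x w := (hwC x hx).symm
        have : x * w ^ k * x⁻¹ = w ^ k := by
          rw [(hcomm.zpow_right k).eq, mul_inv_cancel_right]
        rw [this]
        exact Subgroup.zpow_mem_zpowers w k
      exact Subgroup.zpowers_eq_bot.1 hz)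
  obtain ⟨w, hw, hw1, hwh⟩ := hc.sp h v hv hodd hinv
  exact hno w hw hw1 hwh

end Cfsg.Agent.Lib.Helper24.Sdk
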