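import Mathlib
import Cfsg.Agent.Lib.Helper24.Sdk.Defs
import Cfsg.Agent.Lib.Helper24.Sdk.AB1

set_option autoImplicit false

namespace Cfsg.Agent.Lib.Helper24.Sdk

universe u

variable {G : Type u} [Group G] [Finite G] {V : Subgroup G}

/-- AB2 -/
theorem ab_dich (hc : Ctx V) (A : Subgroup G) (hA : A.Normal)
    (hAc : ∀ a ∈ A, ∀ b ∈ A, a * b = b * a)
    (hAmin : ∀ B : Subgroup G, B ≤ A → B.Normal → B = ⊥ ∨ B = A) (v : G) (hv : v ∈ V) :
    (∀ a ∈ A, v * a = a * v) ∨ (∀ a ∈ A, v * a * v⁻¹ = a⁻¹) := by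
  classical
  have hCn : (Subgroup.centralizer (A : Set G)).Normal := inferInstance
  have htop := ab_sup hc A hA hAc
  have hmemB : ∀ b, b ∈ A ⊓ Subgroup.centralizer ({v} : Set G) ↔ b ∈ A ∧ v * b = b * v := by
    intro b
    rw [Subgroup.mem_inf, Subgroup.mem_centralizer_iff]
    simp
  have hBn : (A ⊓ Subgroup.centralizer ({v} : Set G)).Normal := by
    constructor
    intro b hb g
    have hg : g ∈ Subgroup.centralizer (A : Set G) ⊔ V := by rw [htop]; exact Subgroup.mem_top g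
    have hg' : g ∈ ((Subgroup.centralizer (A : Set G) ⊔ V : Subgroup G) : Set G) := hg
    rw [Subgroup.normal_mul] at hg'
    obtain ⟨c, hcC, u, hu, rfl⟩ := Set.mem_mul.1 hg'
    obtain ⟨hbA, hbv⟩ := (hmemB b).1 hb
    have huA : u * b * u⁻¹ ∈ A := hA.conj_mem b hbA u
    have hcu : c * (u * b * u⁻¹) = (u * b * u⁻¹) * c :=
      ((Subgroup.mem_centralizer_iff.1 hcC) _ huA).symm
    have e1 : c * u * b * (c * u)⁻¹ = u * b * u⁻¹ := by
      calc c * u * b * (c * u)⁻¹ = c * (u * b * u⁻¹) * c⁻¹ := by group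
        _ = (u * b * u⁻¹) * c * c⁻¹ := by rw [hcu]
        _ = u * b * u⁻¹ := by group
    rw [e1, hmemB]
    refine ⟨huA, ?_⟩
    have hvu : v * u = u * v := hc.comm v hv u hu
    have hvu' : v * u⁻¹ = u⁻¹ * v := by
      have : u⁻¹ * (v * u) * u⁻¹ = u⁻¹ * (u * v) * u⁻¹ := by rw [hvu]
      calc v * u⁻¹ = u⁻¹ * (u * v) * u⁻¹ := by group
        _ = u⁻¹ * (v * u) * u⁻¹ := by rw [hvu]
        _ = u⁻¹ * v := by group
    calc v * (u * b * u⁻¹) = (v * u) * b * u⁻¹ := by group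
      _ = u * (v * b) * u⁻¹ := by rw [hvu]; group
      _ = u * b * (v * u⁻¹) := by rw [hbv]; group
      _ = u * b * u⁻¹ * v := by rw [hvu']; group
  rcases hAmin _ inf_le_left hBn with h | h
  · right
    intro a ha
    have hva : v * a * v⁻¹ ∈ A := hA.conj_mem a ha v
    have hv2 : v * v = 1 := by rw [← pow_two]; exact hc.sq v hv
    have hvinv : v⁻¹ = v := inv_eq_of_mul_eq_one_left hv2
    have hmem : a * (v * a * v⁻¹) ∈ A ⊓ Subgroup.centralizer ({v} : Set G) := by
      rw [hmemB]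
      refine ⟨A.mul_mem ha hva, ?_⟩
      have hcomm := hAc a ha _ hva
      rw [hvinv] at hcomm ⊢
      calc v * (a * (v * a * v)) = (v * a * v) * a * v := by group
        _ = a * (v * a * v) * v := by rw [← hcomm]
    rw [h, Subgroup.mem_bot] at hmem
    exact (eq_inv_of_mul_eq_one_right hmem)
  · left
    intro a ha
    have : a ∈ A ⊓ Subgroup.centralizer ({v} : Set G) := by rw [h]; exact ha
    exact ((hmemB a).1 this).2

end Cfsg.Agent.Lib.Helper24.Sdk
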