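import Mathlib
import Cfsg.Agent.Lib.Helper24.Sdk.Defs
import Cfsg.Agent.Lib.Helper24.Sdk.O2
import Cfsg.Agent.Lib.Helper24.Sdk.SUBN
import Cfsg.Agent.Lib.Helper24.Sdk.QUOT
import Cfsg.Agent.Lib.Helper24.Sdk.AB1

set_option autoImplicit false

namespace Cfsg.Agent.Lib.Helper24.Sdk

universe u

variable {G : Type u} [Group G] [Finite G] {V : Subgroup G}

/-- AB3 -/
theorem ab_central_false (hc : Ctx V) (A : Subgroup G) (hA1 : A ≠ ⊥)
    (hAZ : A ≤ Subgroup.center G) : False := by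
  classical
  haveI : Fact (Nat.Prime 2) := ⟨Nat.prime_two⟩
  have hAn : A.Normal := by
    constructor
    intro a ha g
    have := (Subgroup.mem_center_iff.1 (hAZ ha)) g
    have e : g * a * g⁻¹ = a := by rw [this, mul_inv_cancel_right]
    rw [e]; exact ha
  have hVA : V ⊓ A = ⊥ := by
    rw [eq_bot_iff]
    rintro x ⟨hxV, hxA⟩
    have hzn : (Subgroup.zpowers x).Normal := by
      constructor
      intro y hy g
      obtain ⟨k, rfl⟩ := Subgroup.mem_zpowers_iff.1 hy
      have hcomm : Commute g x := (Subgroup.mem_center_iff.1 (hAZ hxA)) g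
      have e : g * x ^ k * g⁻¹ = x ^ k := by
        rw [(hcomm.zpow_right k).eq, mul_inv_cancel_right]
      rw [e]; exact Subgroup.zpow_mem_zpowers x k
    have h := hc.o2 (Subgroup.zpowers x) hzn (ab1_zpowers_pgroup x (hc.sq x hxV))
    have hx : x ∈ V ⊓ Subgroup.zpowers x := ⟨hxV, Subgroup.mem_zpowers x⟩
    rw [h] at hx
    exact hx
  obtain ⟨U, hUn, hAU, hU2, v, hvV, hv1, hvU⟩ := quot hc A hVA hA1
  have hUO : O2f U := subn ⊤ U (o2_top hc) le_top (fun x _ y hy => hUn.conj_mem y hy x)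
  -- `U` is nilpotent
  have hq : IsPGroup 2 (U ⧸ Subgroup.center U) := by
    intro q
    obtain ⟨x, rfl⟩ := QuotientGroup.mk_surjective q
    obtain ⟨k, hk⟩ := hU2 x.1 x.2
    refine ⟨k, ?_⟩
    rw [← QuotientGroup.mk_pow, QuotientGroup.eq_one_iff, Subgroup.mem_center_iff]
    intro y
    apply Subtype.ext
    have := (Subgroup.mem_center_iff.1 (hAZ hk)) y.1
    simpa using this
  haveI hnil : Group.IsNilpotent U := Group.of_quotient_center_nilpotent hq.isNilpotent
  -- a Sylow 2-subgroup of `U` containing `v`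
  have hzp : IsPGroup 2 (Subgroup.zpowers (⟨v, hvU⟩ : U)) := by
    apply ab1_zpowers_pgroup
    apply Subtype.ext
    simpa using hc.sq v hvV
  obtain ⟨P, hP⟩ := hzp.exists_le_sylow
  have hPn : (P : Subgroup U).Normal := inferInstance
  have hS : (P : Subgroup U).map U.subtype = ⊥ := by
    apply hUO
    · rintro _ ⟨x, -, rfl⟩
      exact x.2
    · exact P.2.map U.subtype
    · rintro x hx _ ⟨y, hy, rfl⟩
      exact ⟨⟨x, hx⟩ * y * ⟨x, hx⟩⁻¹, hPn.conj_mem y hy ⟨x, hx⟩, by simp⟩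
  have hvS : v ∈ (P : Subgroup U).map U.subtype :=
    ⟨⟨v, hvU⟩, hP (Subgroup.mem_zpowers _), rfl⟩
  rw [hS, Subgroup.mem_bot] at hvS
  exact hv1 hvS

end Cfsg.Agent.Lib.Helper24.Sdk
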