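import Mathlib
import Cfsg.Agent.Lib.Helper24.Sdk.Defs
import Cfsg.Agent.Lib.Helper24.Sdk.O2

set_option autoImplicit false

namespace Cfsg.Agent.Lib.Helper24.Sdk

universe u

variable {G : Type u} [Group G] [Finite G] {V : Subgroup G}

/-- AODD -/
theorem aodd (hc : Ctx V) (A : Subgroup G) (hA : A.Normal)
    (hAc : ∀ a ∈ A, ∀ b ∈ A, a * b = b * a) : ∀ a ∈ A, Odd (orderOf a) := by
  classical
  let T : Subgroup G :=
    { carrier := {a | a ∈ A ∧ ∃ k : ℕ, a ^ (2 ^ k) = 1}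
      mul_mem' := by
        rintro a b ⟨ha, k, hk⟩ ⟨hb, l, hl⟩
        refine ⟨A.mul_mem ha hb, k + l, ?_⟩
        have hcomm : Commute a b := hAc a ha b hb
        rw [hcomm.mul_pow, pow_add, pow_mul, hk, one_pow, one_mul, mul_comm (2 ^ k) (2 ^ l),
          pow_mul, hl, one_pow]
      one_mem' := ⟨A.one_mem, 0, by simp⟩
      inv_mem' := by
        rintro a ⟨ha, k, hk⟩
        exact ⟨A.inv_mem ha, k, by rw [inv_pow, hk, inv_one]⟩ }
  have hT2 : IsPGroup 2 T := by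
    rintro ⟨a, ha, k, hk⟩
    exact ⟨k, Subtype.ext hk⟩
  have hTn : Nz ⊤ T := by
    rintro x - y ⟨hy, k, hk⟩
    refine ⟨hA.conj_mem y hy x, k, ?_⟩
    rw [conj_pow, hk, mul_one, mul_inv_cancel]
  have hTbot : T = ⊥ := o2_top hc T le_top hT2 hTn
  intro a ha
  obtain ⟨k, m, hm, hkm⟩ := Nat.exists_eq_two_pow_mul_odd (orderOf_pos a).ne'
  have hmem : a ^ m ∈ T :=
    ⟨A.pow_mem ha m, k, by rw [← pow_mul, mul_comm, ← hkm, pow_orderOf_eq_one]⟩
  rw [hTbot, Subgroup.mem_bot] at hmem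
  exact hm.of_dvd_nat (orderOf_dvd_of_pow_eq_one hmem)

end Cfsg.Agent.Lib.Helper24.Sdk
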