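import Mathlib
import Cfsg.Agent.Lib.Helper24.Sdk.Defs
import Cfsg.Agent.Lib.Helper24.Sdk.O2
import Cfsg.Agent.Lib.Helper24.Sdk.SUBN
import Cfsg.Agent.Lib.Helper24.Sdk.MIN
import Cfsg.Agent.Lib.Helper24.Sdk.AODD

set_option autoImplicit false

namespace Cfsg.Agent.Lib.Helper24.Sdk

universe u

variable {G : Type u} [Group G] [Finite G] {V : Subgroup G}

theorem ab4_odd_pow {H : Type*} [Group H] {a : H} (ha : Odd (orderOf a)) (k : ℕ)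
    (h : a ^ (2 ^ k) = 1) : a = 1 := by
  have h1 : orderOf a ∣ 2 ^ k := orderOf_dvd_of_pow_eq_one h
  have h2 : Nat.Coprime (orderOf a) (2 ^ k) := Nat.Coprime.pow_right k (Nat.coprime_two_right.2 ha)
  exact orderOf_eq_one_iff.1 (Nat.Coprime.eq_one_of_dvd h2 h1)

theorem ab4_odd_mul {H : Type*} [Group H] {a b : H} (hab : Commute a b) (ha : Odd (orderOf a))
    (hb : Odd (orderOf b)) : Odd (orderOf (a * b)) :=
  Odd.of_dvd_nat (ha.mul hb) ((hab.orderOf_mul_dvd_lcm).trans (Nat.lcm_dvd_mul _ _))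

/-- the centraliser of a normal subgroup has no normal `2`-subgroup -/
theorem ab4_o2f_cent (hc : Ctx V) (A : Subgroup G) (hA : A.Normal) :
    O2f (Subgroup.centralizer (A : Set G)) := by
  haveI := hA
  have hn : (Subgroup.centralizer (A : Set G)).Normal := inferInstance
  exact subn ⊤ _ (o2_top hc) le_top (fun x _ y hy => hn.conj_mem y hy x)

/-- AB4 -/
theorem ab_invert_false (hc : Ctx V) (A : Subgroup G) (hA : A.Normal) (hA1 : A ≠ ⊥)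
    (hAc : ∀ a ∈ A, ∀ b ∈ A, a * b = b * a)
    (hdich : ∀ v ∈ V, (∀ a ∈ A, v * a = a * v) ∨ (∀ a ∈ A, v * a * v⁻¹ = a⁻¹))
    (v₀ : G) (hv₀ : v₀ ∈ V) (hv₀A : ¬ ∀ a ∈ A, v₀ * a = a * v₀) : False := by
  classical
  obtain ⟨a, ha, ha1⟩ : ∃ a : G, a ∈ A ∧ a ≠ 1 := by
    by_contra hcon
    push Not at hcon
    exact hA1 ((Subgroup.eq_bot_iff_forall A).2 hcon)
  have hodd := aodd hc A hA hAc
  have haodd := hodd a ha
  -- an element of `V` inverting `a` does not commute with it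
  have hninv : ∀ w : G, w * a * w⁻¹ = a⁻¹ → w * a ≠ a * w := by
    intro w h1 h2
    have h3 : a⁻¹ = a := by rw [← h1, h2]; group
    have h4 : a ^ (2 ^ 1) = 1 := by
      rw [pow_one, pow_two]
      nth_rewrite 1 [← h3]
      group
    exact ha1 (ab4_odd_pow haodd 1 h4)
  have hv₀inv : ∀ b ∈ A, v₀ * b * v₀⁻¹ = b⁻¹ := (hdich v₀ hv₀).resolve_left hv₀A
  set C := Subgroup.centralizer (A : Set G) with hC
  have hmemC : ∀ w : G, w ∈ C ↔ ∀ b ∈ A, w * b = b * w := by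
    intro w
    rw [hC, Subgroup.mem_centralizer_iff]
    exact ⟨fun h b hb => (h b hb).symm, fun h b hb => (h b hb).symm⟩
  -- `K ≠ ⊥`
  obtain ⟨w₀, hw₀V, hw₀1, hw₀a⟩ := hc.sp a v₀ hv₀ haodd (hv₀inv a ha)
  have hw₀C : w₀ ∈ C := by
    rw [hmemC]
    rcases hdich w₀ hw₀V with h | h
    · exact h
    · exact absurd hw₀a (hninv w₀ (h a ha))
  have hK : V ⊓ C ≠ ⊥ := by
    intro h
    have : w₀ ∈ V ⊓ C := ⟨hw₀V, hw₀C⟩
    rw [h, Subgroup.mem_bot] at this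
    exact hw₀1 this
  have hCtop : C ≠ ⊤ := by
    intro h
    apply hv₀A
    rw [← hmemC, h]
    trivial
  have hO := ab4_o2f_cent hc A hA
  obtain ⟨v₁, hv₁, k, hk, hkodd, hkinv, hkfree⟩ := min_sub hc C (V ⊓ C) hCtop inf_le_right
    inf_le_left hK (fun T hT h2 hn => by rw [hO T hT h2 hn]; exact inf_bot_eq _)
  obtain ⟨v₂, hv₂V, hv₂1, hv₂k⟩ := hc.sp k v₁ hv₁.1 hkodd hkinv
  have hv₂C : v₂ ∉ C := fun h => hkfree v₂ ⟨hv₂V, h⟩ hv₂1 hv₂k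
  have hv₂inv : ∀ b ∈ A, v₂ * b * v₂⁻¹ = b⁻¹ :=
    (hdich v₂ hv₂V).resolve_left (fun h => hv₂C ((hmemC v₂).2 h))
  have hka : k * a = a * k := (hmemC k).1 hk a ha
  have hv₁a : v₁ * a = a * v₁ := (hmemC v₁).1 hv₁.2 a ha
  have hgodd : Odd (orderOf (a * k)) := ab4_odd_mul (show Commute a k from hka.symm) haodd hkodd
  have hginv : (v₁ * v₂) * (a * k) * (v₁ * v₂)⁻¹ = (a * k)⁻¹ := by
    have e1 : v₂ * k * v₂⁻¹ = k := by rw [hv₂k]; group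
    have e2 : v₁ * a⁻¹ * v₁⁻¹ = a⁻¹ := by
      have : v₁ * a * v₁⁻¹ = a := by rw [hv₁a]; group
      calc v₁ * a⁻¹ * v₁⁻¹ = (v₁ * a * v₁⁻¹)⁻¹ := by group
        _ = a⁻¹ := by rw [this]
    calc (v₁ * v₂) * (a * k) * (v₁ * v₂)⁻¹
        = v₁ * ((v₂ * a * v₂⁻¹) * (v₂ * k * v₂⁻¹)) * v₁⁻¹ := by group
      _ = v₁ * (a⁻¹ * k) * v₁⁻¹ := by rw [hv₂inv a ha, e1]
      _ = (v₁ * a⁻¹ * v₁⁻¹) * (v₁ * k * v₁⁻¹) := by group
      _ = a⁻¹ * k⁻¹ := by rw [e2, hkinv]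
      _ = (k * a)⁻¹ := by group
      _ = (a * k)⁻¹ := by rw [hka]
  obtain ⟨w, hwV, hw1, hwg⟩ := hc.sp (a * k) (v₁ * v₂) (V.mul_mem hv₁.1 hv₂V) hgodd hginv
  by_cases hwC : w ∈ C
  · have hwa : w * a = a * w := (hmemC w).1 hwC a ha
    apply hkfree w ⟨hwV, hwC⟩ hw1
    have : a * (w * k) = a * (k * w) := by
      calc a * (w * k) = (a * w) * k := by group
        _ = (w * a) * k := by rw [hwa]
        _ = w * (a * k) := by group
        _ = a * k * w := hwg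
        _ = a * (k * w) := by group
    exact mul_left_cancel this
  · have hwinv : ∀ b ∈ A, w * b * w⁻¹ = b⁻¹ :=
      (hdich w hwV).resolve_left (fun h => hwC ((hmemC w).2 h))
    -- `w k w⁻¹ = a² k`
    have e1 : w * k * w⁻¹ = a * a * k := by
      have h1 : w * (a * k) * w⁻¹ = a * k := by rw [hwg]; group
      have h2 : w * (a * k) * w⁻¹ = (w * a * w⁻¹) * (w * k * w⁻¹) := by group
      rw [h2, hwinv a ha] at h1
      calc w * k * w⁻¹ = a * (a⁻¹ * (w * k * w⁻¹)) := by group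
        _ = a * (a * k) := by rw [h1]
        _ = a * a * k := by group
    have e2 : v₂ * k * v₂⁻¹ = k := by rw [hv₂k]; group
    have e3 : (v₂ * w) * k * (v₂ * w)⁻¹ = a⁻¹ * a⁻¹ * k := by
      calc (v₂ * w) * k * (v₂ * w)⁻¹ = v₂ * (w * k * w⁻¹) * v₂⁻¹ := by group
        _ = v₂ * (a * a * k) * v₂⁻¹ := by rw [e1]
        _ = (v₂ * a * v₂⁻¹) * (v₂ * a * v₂⁻¹) * (v₂ * k * v₂⁻¹) := by group
        _ = a⁻¹ * a⁻¹ * k := by rw [hv₂inv a ha, e2]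
    have e4 : (v₂ * w) * a⁻¹ * (v₂ * w)⁻¹ = a⁻¹ := by
      calc (v₂ * w) * a⁻¹ * (v₂ * w)⁻¹ = v₂ * (w * a * w⁻¹)⁻¹ * v₂⁻¹ := by group
        _ = v₂ * a * v₂⁻¹ := by rw [hwinv a ha, inv_inv]
        _ = a⁻¹ := hv₂inv a ha
    have e5 : (v₂ * w) * (v₂ * w) = 1 := by
      have := hc.sq (v₂ * w) (V.mul_mem hv₂V hwV)
      rwa [pow_two] at this
    have e6 : k = a⁻¹ * a⁻¹ * (a⁻¹ * a⁻¹ * k) := by
      calc k = ((v₂ * w) * (v₂ * w)) * k * ((v₂ * w) * (v₂ * w))⁻¹ := by rw [e5]; group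
        _ = (v₂ * w) * ((v₂ * w) * k * (v₂ * w)⁻¹) * (v₂ * w)⁻¹ := by group
        _ = (v₂ * w) * (a⁻¹ * a⁻¹ * k) * (v₂ * w)⁻¹ := by rw [e3]
        _ = ((v₂ * w) * a⁻¹ * (v₂ * w)⁻¹) * ((v₂ * w) * a⁻¹ * (v₂ * w)⁻¹)
              * ((v₂ * w) * k * (v₂ * w)⁻¹) := by group
        _ = a⁻¹ * a⁻¹ * (a⁻¹ * a⁻¹ * k) := by rw [e4, e3]
    have e7 : a ^ (2 ^ 2) = 1 := by
      have h1 : a * a * a * a * k = a * a * a * a * (a⁻¹ * a⁻¹ * (a⁻¹ * a⁻¹ * k)) := by rw [← e6]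
      have h2 : a * a * a * a * (a⁻¹ * a⁻¹ * (a⁻¹ * a⁻¹ * k)) = k := by group
      rw [h2] at h1
      have h3 : a * a * a * a = 1 := mul_eq_right.1 h1
      calc a ^ (2 ^ 2) = a * a * a * a := by
            norm_num [pow_succ]
        _ = 1 := h3
    exact ha1 (ab4_odd_pow haodd 2 e7)

end Cfsg.Agent.Lib.Helper24.Sdk
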