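import Mathlib
import Cfsg.Agent.Lib.Helper24.Sdk.Defs

set_option autoImplicit false

namespace Cfsg.Agent.Lib.Helper24.Sdk

universe u

variable {G : Type u} [Group G] [Finite G] {V : Subgroup G}

/-- CDICH -/
theorem conj_dich (N : Subgroup G) (hN : N.Normal) (L : Subgroup G) (hLN : L ≤ N) (hLn : Nz N L)
    (hLmin : ∀ B : Subgroup G, B ≤ L → Nz N B → B = ⊥ ∨ B = L) (u : G) :
    (∀ y ∈ L, u * y * u⁻¹ ∈ L) ∨
      ((∀ y ∈ L, u * y * u⁻¹ ∈ L → y = 1) ∧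
        ∀ y ∈ L, ∀ y' ∈ L, y * (u * y' * u⁻¹) = (u * y' * u⁻¹) * y) := by
  obtain ⟨Lu, hLu⟩ : ∃ Lu : Subgroup G, Lu = L.map (MulAut.conj u).toMonoidHom := ⟨_, rfl⟩
  have hmem : ∀ z, z ∈ Lu ↔ ∃ y ∈ L, u * y * u⁻¹ = z := by
    intro z
    rw [hLu, Subgroup.mem_map]
    rfl
  have hLuN : Lu ≤ N := by
    intro z hz
    obtain ⟨y, hy, rfl⟩ := (hmem z).mp hz
    exact hN.conj_mem y (hLN hy) u
  have hLun : Nz N Lu := by
    intro n hn z hz
    obtain ⟨y, hy, rfl⟩ := (hmem z).mp hz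
    rw [hmem]
    refine ⟨(u⁻¹ * n * u) * y * (u⁻¹ * n * u)⁻¹, ?_, by group⟩
    apply hLn _ _ y hy
    have := hN.conj_mem n hn u⁻¹
    simpa using this
  have hBn : Nz N (L ⊓ Lu) := by
    intro n hn z hz
    exact ⟨hLn n hn z hz.1, hLun n hn z hz.2⟩
  rcases hLmin _ inf_le_left hBn with h | h
  · right
    constructor
    · intro y hy hy'
      have : u * y * u⁻¹ ∈ L ⊓ Lu := ⟨hy', (hmem _).mpr ⟨y, hy, rfl⟩⟩
      rw [h, Subgroup.mem_bot] at this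
      have h2 : u * y = u := by
        have := mul_inv_eq_one.mp this
        exact this
      exact mul_eq_left.mp h2
    · intro y hy y' hy'
      obtain ⟨z, hz⟩ : ∃ z, z = u * y' * u⁻¹ := ⟨_, rfl⟩
      rw [← hz]
      have hzLu : z ∈ Lu := (hmem _).mpr ⟨y', hy', hz.symm⟩
      have hc1 : y * z * y⁻¹ * z⁻¹ ∈ Lu :=
        Lu.mul_mem (hLun y (hLN hy) z hzLu) (Lu.inv_mem hzLu)
      have hc2 : y * z * y⁻¹ * z⁻¹ ∈ L := by
        have : y * z * y⁻¹ * z⁻¹ = y * (z * y⁻¹ * z⁻¹) := by group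
        rw [this]
        exact L.mul_mem hy (hLn z (hLuN hzLu) _ (L.inv_mem hy))
      have : y * z * y⁻¹ * z⁻¹ ∈ L ⊓ Lu := ⟨hc2, hc1⟩
      rw [h, Subgroup.mem_bot] at this
      have h3 := mul_inv_eq_one.mp this
      exact mul_inv_eq_iff_eq_mul.mp h3
  · left
    have hle : L ≤ Lu := inf_eq_left.mp h
    have hcard : Nat.card Lu = Nat.card L := by
      rw [hLu]
      exact Subgroup.card_map_of_injective (MulAut.conj u).injective
    have heq : L = Lu := Subgroup.eq_of_le_of_card_ge hle hcard.le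
    intro y hy
    rw [heq]
    exact (hmem _).mpr ⟨y, hy, rfl⟩

end Cfsg.Agent.Lib.Helper24.Sdk
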