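import Mathlib
import Cfsg.Agent.Lib.Helper24.Sdk.Defs

set_option autoImplicit false

namespace Cfsg.Agent.Lib.Helper24.Sdk

universe u

open scoped commutatorElement

variable {G : Type u} [Group G] [Finite G] {V : Subgroup G}

/-- a nonabelian simple group is quasisimple -/
theorem fstar_qs {H : Type*} [Group H] (hs : IsSimpleGroup H) (hnab : ¬ ∀ a b : H, a * b = b * a) :
    Cfsg.IsQuasisimple H := by
  have hcen : Subgroup.center H = ⊥ := by
    rcases hs.eq_bot_or_eq_top_of_normal (Subgroup.center H) inferInstance with h | h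
    · exact h
    · exfalso
      apply hnab
      intro a b
      have : a ∈ Subgroup.center H := by rw [h]; trivial
      exact ((Subgroup.mem_center_iff.mp this) b).symm
  refine ⟨⟨?_⟩, ?_⟩
  · rcases hs.eq_bot_or_eq_top_of_normal (commutator H) inferInstance with h | h
    · exfalso
      apply hnab
      intro a b
      have h1 : ⁅a, b⁆ ∈ commutator H := by
        rw [commutator_def]
        exact Subgroup.commutator_mem_commutator (Subgroup.mem_top a) (Subgroup.mem_top b)
      rw [h, Subgroup.mem_bot, commutatorElement_eq_one_iff_mul_comm] at h1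
      exact h1
    · exact h
  · have e : H ⧸ Subgroup.center H ≃* H :=
      (QuotientGroup.quotientMulEquivOfEq hcen).trans QuotientGroup.quotientBot
    exact e.isSimpleGroup

/-- a nilpotent simple group is abelian -/
theorem fstar_nil {H : Type*} [Group H] (hs : IsSimpleGroup H) (hnil : Group.IsNilpotent H) :
    ∀ a b : H, a * b = b * a := by
  by_contra hnab
  have hq := fstar_qs hs hnab
  have := hq.1
  have hnt : Nontrivial H := hs.toNontrivial
  exact Group.IsPerfect.not_isNilpotent H hnil

/-- FSTAR -/
theorem fstar (N : Subgroup G) (hN : N.Normal) (hs : IsSimpleGroup N)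
    (hnab : ¬ ∀ a ∈ N, ∀ b ∈ N, a * b = b * a)
    (hC : Subgroup.centralizer (N : Set G) = ⊥) (hVc : ∀ a ∈ V, ∀ b ∈ V, a * b = b * a)
    (htop : N ⊔ V = ⊤) : Cfsg.generalizedFittingSubgroup G = N := by
  have hnab' : ¬ ∀ a b : N, a * b = b * a := by
    intro h
    apply hnab
    intro a ha b hb
    exact congrArg Subtype.val (h ⟨a, ha⟩ ⟨b, hb⟩)
  have hq : Cfsg.IsQuasisimple N := fstar_qs hs hnab'
  -- the Fitting subgroup is trivial
  have hF : Cfsg.fittingSubgroup G = ⊥ := by
    unfold Cfsg.fittingSubgroup
    rw [eq_bot_iff]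
    apply sSup_le
    rintro M ⟨hMn, hMnil⟩
    have hMN : M ⊓ N = ⊥ := by
      have hnorm : ((M ⊓ N).subgroupOf N).Normal := by
        have : (M ⊓ N).Normal := inferInstance
        exact Subgroup.normal_subgroupOf
      rcases hs.eq_bot_or_eq_top_of_normal _ hnorm with h | h
      · rw [Subgroup.subgroupOf_eq_bot] at h
        rw [← inf_eq_left.mpr (inf_le_right : M ⊓ N ≤ N)]
        exact disjoint_iff.mp h
      · exfalso
        rw [Subgroup.subgroupOf_eq_top] at h
        have hNM : N ≤ M := h.trans inf_le_left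
        apply hnab'
        apply fstar_nil hs
        have e : (N.subgroupOf M) ≃* N := Subgroup.subgroupOfEquivOfLe hNM
        have h1 : Group.IsNilpotent (N.subgroupOf M) := inferInstance
        exact Group.nilpotent_of_mulEquiv e
    rw [← hC]
    intro m hm
    rw [Subgroup.mem_centralizer_iff]
    intro n hn
    have h1 : Disjoint M N := disjoint_iff.mpr hMN
    exact (Subgroup.commute_of_normal_of_disjoint M N hMn hN h1 m n hm hn).symm
  -- commutators lie in `N`
  have hcomm : ∀ k h : G, k * h * k⁻¹ * h⁻¹ ∈ N := by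
    intro k h
    have hdec : ∀ g : G, ∃ v ∈ V, (QuotientGroup.mk g : G ⧸ N) = QuotientGroup.mk v := by
      intro g
      have hg : g ∈ N ⊔ V := by rw [htop]; trivial
      rw [← SetLike.mem_coe, Subgroup.normal_mul] at hg
      obtain ⟨n, hn, v, hv, rfl⟩ := hg
      refine ⟨v, hv, ?_⟩
      rw [QuotientGroup.mk_mul, (QuotientGroup.eq_one_iff n).mpr hn, one_mul]
    obtain ⟨v, hv, hkv⟩ := hdec k
    obtain ⟨w, hw, hhw⟩ := hdec h
    rw [← QuotientGroup.eq_one_iff, QuotientGroup.mk_mul, QuotientGroup.mk_mul, QuotientGroup.mk_mul,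
      QuotientGroup.mk_inv, QuotientGroup.mk_inv, hkv, hhw, ← QuotientGroup.mk_mul, hVc v hv w hw,
      QuotientGroup.mk_mul]
    group
  have hL : Cfsg.layer G = N := by
    unfold Cfsg.layer
    apply le_antisymm
    · apply sSup_le
      rintro K ⟨_, hK⟩
      intro k hk
      have h1 : commutator K ≤ N.subgroupOf K := by
        rw [commutator_def, Subgroup.commutator_le]
        intro a _ b _
        rw [Subgroup.mem_subgroupOf]
        exact hcomm a b
      have h2 : (⟨k, hk⟩ : K) ∈ commutator K := by
        rw [hK.1.commutator_eq_top]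
        exact Subgroup.mem_top _
      exact h1 h2
    · apply le_sSup
      exact ⟨hN.isSubnormal, hq⟩
  unfold Cfsg.generalizedFittingSubgroup
  rw [hL, hF, sup_bot_eq]

end Cfsg.Agent.Lib.Helper24.Sdk
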