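import Mathlib
import Cfsg.Agent.Lib.Helper24.Sdk.Defs
import Cfsg.Agent.Lib.Helper24.Sdk.SQ

set_option autoImplicit false

namespace Cfsg.Agent.Lib.Helper24.Sdk

universe u

variable {G : Type u} [Group G] [Finite G] {V : Subgroup G}

/-- GENC -/
theorem gen_cent (N : Subgroup G) (hN : N.Normal)
    (hNmin : ∀ B : Subgroup G, B ≤ N → B.Normal → B = ⊥ ∨ B = N) (htop : N ⊔ V = ⊤)
    (L : Subgroup G) (hLN : L ≤ N) (hL1 : L ≠ ⊥) (hLn : Nz N L) (g : G)
    (hg : ∀ v ∈ V, ∀ y ∈ L, g * (v * y * v⁻¹) = (v * y * v⁻¹) * g) :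
    g ∈ Subgroup.centralizer (N : Set G) := by
  obtain ⟨s, hs⟩ : ∃ s : Set G, s = {z | ∃ v ∈ V, ∃ y ∈ L, z = v * y * v⁻¹} := ⟨_, rfl⟩
  have hconj : ∀ x : G, ∀ z ∈ s, x * z * x⁻¹ ∈ s := by
    intro x z hz
    rw [hs] at hz ⊢
    obtain ⟨v, hv, y, hy, rfl⟩ := hz
    have hx : x ∈ N ⊔ V := by rw [htop]; trivial
    have hVN : Nz V N := fun w _ n hn => hN.conj_mem n hn w
    obtain ⟨n, hn, w, hw, rfl⟩ := mem_sup_nz hVN hx
    refine ⟨w * v, V.mul_mem hw hv, ((w * v)⁻¹ * n * (w * v)) * y * ((w * v)⁻¹ * n * (w * v))⁻¹,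
      ?_, by group⟩
    apply hLn _ _ y hy
    have := hN.conj_mem n hn (w * v)⁻¹
    simpa using this
  have hSn : (Subgroup.closure s).Normal := by
    constructor
    intro z hz x
    induction hz using Subgroup.closure_induction with
    | mem z hz => exact Subgroup.subset_closure (hconj x z hz)
    | one => simp
    | mul a b _ _ ha hb =>
      have : x * (a * b) * x⁻¹ = (x * a * x⁻¹) * (x * b * x⁻¹) := by group
      rw [this]; exact Subgroup.mul_mem _ ha hb
    | inv a _ ha =>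
      have : x * a⁻¹ * x⁻¹ = (x * a * x⁻¹)⁻¹ := by group
      rw [this]; exact Subgroup.inv_mem _ ha
  have hSN : Subgroup.closure s ≤ N := by
    rw [Subgroup.closure_le]
    intro z hz
    rw [hs] at hz
    obtain ⟨v, hv, y, hy, rfl⟩ := hz
    exact hN.conj_mem y (hLN hy) v
  have hLS : L ≤ Subgroup.closure s := by
    intro y hy
    apply Subgroup.subset_closure
    rw [hs]
    exact ⟨1, V.one_mem, y, hy, by simp⟩
  have hSeq : Subgroup.closure s = N := by
    rcases hNmin _ hSN hSn with h | h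
    · exfalso; apply hL1; rw [eq_bot_iff, ← h]; exact hLS
    · exact h
  have hSc : Subgroup.closure s ≤ Subgroup.centralizer ({g} : Set G) := by
    rw [Subgroup.closure_le]
    intro z hz
    rw [hs] at hz
    obtain ⟨v, hv, y, hy, rfl⟩ := hz
    refine Subgroup.mem_centralizer_iff.mpr ?_
    intro k hk
    rw [Set.mem_singleton_iff] at hk
    rw [hk]
    exact hg v hv y hy
  refine Subgroup.mem_centralizer_iff.mpr ?_
  intro n hn
  have hn' : n ∈ Subgroup.closure s := by rw [hSeq]; exact hn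
  have := Subgroup.mem_centralizer_iff.mp (hSc hn') g (Set.mem_singleton g)
  exact this.symm

end Cfsg.Agent.Lib.Helper24.Sdk
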