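import Mathlib
import Cfsg.Agent.Lib.Helper24.Sdk.Defs

set_option autoImplicit false

namespace Cfsg.Agent.Lib.Helper24.Sdk

universe u

variable {G : Type u} [Group G] [Finite G] {V : Subgroup G}

/-- MNS : a minimal normal subgroup exists -/
theorem exists_min_normal (hG : (⊤ : Subgroup G) ≠ ⊥) :
    ∃ N : Subgroup G, N.Normal ∧ N ≠ ⊥ ∧ ∀ B : Subgroup G, B ≤ N → B.Normal → B = ⊥ ∨ B = N := by
  classical
  have hne : {N : Subgroup G | N.Normal ∧ N ≠ ⊥}.Nonempty := ⟨⊤, inferInstance, hG⟩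
  obtain ⟨N, hN, hmin⟩ := WellFounded.has_min (wellFounded_lt (α := Subgroup G)) _ hne
  refine ⟨N, hN.1, hN.2, ?_⟩
  intro B hB hBn
  by_cases hB1 : B = ⊥
  · left; exact hB1
  · right
    by_contra hne
    exact hmin B ⟨hBn, hB1⟩ (lt_of_le_of_ne hB hne)

end Cfsg.Agent.Lib.Helper24.Sdk
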