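import Mathlib
import Cfsg.Agent.Lib.Helper24.Sdk.Defs
import Cfsg.Agent.Lib.Helper24.Sdk.O2
import Cfsg.Agent.Lib.Helper24.Sdk.SUBN
import Cfsg.Agent.Lib.Helper24.Sdk.MIN
import Cfsg.Agent.Lib.Helper24.Sdk.NSP
import Cfsg.Agent.Lib.Helper24.Sdk.SQ

set_option autoImplicit false

namespace Cfsg.Agent.Lib.Helper24.Sdk

universe u

variable {G : Type u} [Group G] [Finite G] {V : Subgroup G}

theorem nab1_odd_mul {H : Type*} [Group H] {a b : H} (hab : Commute a b) (ha : Odd (orderOf a))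
    (hb : Odd (orderOf b)) : Odd (orderOf (a * b)) :=
  Odd.of_dvd_nat (ha.mul hb) ((hab.orderOf_mul_dvd_lcm).trans (Nat.lcm_dvd_mul _ _))

/-- NAB1 -/
theorem nab_inf (hc : Ctx V) (N : Subgroup G) (hN : N.Normal) (hN1 : N ≠ ⊥)
    (hZ : N ⊓ Subgroup.centralizer (N : Set G) = ⊥) :
    V ⊓ Subgroup.centralizer (N : Set G) = ⊥ := by
  classical
  by_contra hK
  haveI := hN
  set Y := Subgroup.centralizer (N : Set G) with hY
  have hYn : Y.Normal := by rw [hY]; infer_instance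
  have hmemY : ∀ w : G, w ∈ Y ↔ ∀ b ∈ N, w * b = b * w := by
    intro w
    rw [hY, Subgroup.mem_centralizer_iff]
    exact ⟨fun h b hb => (h b hb).symm, fun h b hb => (h b hb).symm⟩
  have hNY : ∀ x, x ∈ N → x ∈ Y → x = 1 := by
    intro x h1 h2
    have : x ∈ N ⊓ Y := ⟨h1, h2⟩
    rwa [hZ, Subgroup.mem_bot] at this
  have hYtop : Y ≠ ⊤ := by
    intro h
    apply hN1
    rw [Subgroup.eq_bot_iff_forall]
    intro x hx
    exact hNY x hx (by rw [h]; trivial)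
  have hOtop := o2_top hc
  have hOY : O2f Y := subn ⊤ Y hOtop le_top (fun x _ y hy => hYn.conj_mem y hy x)
  have hON : O2f N := subn ⊤ N hOtop le_top (fun x _ y hy => hN.conj_mem y hy x)
  obtain ⟨v₁, hv₁, k, hk, hkodd, hkinv, hkfree⟩ := min_sub hc Y (V ⊓ Y) hYtop inf_le_right
    inf_le_left hK (fun T hT h2 hn => by rw [hOY T hT h2 hn]; exact inf_bot_eq _)
  set W₁ := V ⊓ Subgroup.centralizer ({k} : Set G) with hW₁
  have hmemW : ∀ w : G, w ∈ W₁ ↔ w ∈ V ∧ w * k = k * w := by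
    intro w
    rw [hW₁, Subgroup.mem_inf, Subgroup.mem_centralizer_singleton_iff]
  obtain ⟨w₀, hw₀V, hw₀1, hw₀k⟩ := hc.sp k v₁ hv₁.1 hkodd hkinv
  have hW₁ne : W₁ ≠ ⊥ := by
    intro h
    have : w₀ ∈ W₁ := (hmemW w₀).2 ⟨hw₀V, hw₀k⟩
    rw [h, Subgroup.mem_bot] at this
    exact hw₀1 this
  have hW₁Y : ∀ w ∈ W₁, w ∈ Y → w = 1 := by
    intro w hw hwY
    by_contra h1
    exact hkfree w ⟨((hmemW w).1 hw).1, hwY⟩ h1 ((hmemW w).1 hw).2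
  have hnorm : Nz W₁ N := fun x _ y hy => hN.conj_mem y hy x
  have hlt : N ⊔ W₁ ≠ ⊤ := by
    intro htop
    have hexp : ∀ y ∈ Y, y ^ 2 = 1 := by
      intro y hy
      have h1 : y ^ 2 ∈ N := sq_mem hc N W₁ inf_le_left hnorm y (by rw [htop]; trivial)
      exact hNY _ h1 (Y.pow_mem hy 2)
    have hYp : IsPGroup 2 Y := by
      intro y
      refine ⟨1, ?_⟩
      apply Subtype.ext
      rw [pow_one, Subgroup.coe_pow, Subgroup.coe_one]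
      exact hexp y y.2
    have hYbot : Y = ⊥ := hOtop Y le_top hYp (fun x _ y hy => hYn.conj_mem y hy x)
    apply hK
    rw [hYbot]
    exact inf_bot_eq _
  obtain ⟨v₂, hv₂, h, hh, hhodd, hhinv, hhfree⟩ := nsp hc N W₁ inf_le_left hW₁ne hnorm hlt hON
    (fun w hw hcw => hW₁Y w hw ((hmemY w).2 hcw))
  have hkh : k * h = h * k := (hmemY k).1 hk h hh
  have hv₂V : v₂ ∈ V := ((hmemW v₂).1 hv₂).1
  have hv₂k : v₂ * k = k * v₂ := ((hmemW v₂).1 hv₂).2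
  have hv₁h : v₁ * h = h * v₁ := (hmemY v₁).1 hv₁.2 h hh
  have hgodd : Odd (orderOf (h * k)) := nab1_odd_mul (show Commute h k from hkh.symm) hhodd hkodd
  have hginv : (v₁ * v₂) * (h * k) * (v₁ * v₂)⁻¹ = (h * k)⁻¹ := by
    have e1 : v₂ * k * v₂⁻¹ = k := by rw [hv₂k]; group
    have e2 : v₁ * h⁻¹ * v₁⁻¹ = h⁻¹ := by
      have : v₁ * h * v₁⁻¹ = h := by rw [hv₁h]; group
      calc v₁ * h⁻¹ * v₁⁻¹ = (v₁ * h * v₁⁻¹)⁻¹ := by group
        _ = h⁻¹ := by rw [this]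
    calc (v₁ * v₂) * (h * k) * (v₁ * v₂)⁻¹
        = v₁ * ((v₂ * h * v₂⁻¹) * (v₂ * k * v₂⁻¹)) * v₁⁻¹ := by group
      _ = v₁ * (h⁻¹ * k) * v₁⁻¹ := by rw [hhinv, e1]
      _ = (v₁ * h⁻¹ * v₁⁻¹) * (v₁ * k * v₁⁻¹) := by group
      _ = h⁻¹ * k⁻¹ := by rw [e2, hkinv]
      _ = (k * h)⁻¹ := by group
      _ = (h * k)⁻¹ := by rw [hkh]
  obtain ⟨w, hwV, hw1, hwg⟩ := hc.sp (h * k) (v₁ * v₂) (V.mul_mem hv₁.1 hv₂V) hgodd hginv
  have h1 : (w * h * w⁻¹) * (w * k * w⁻¹) = h * k := by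
    calc (w * h * w⁻¹) * (w * k * w⁻¹) = w * (h * k) * w⁻¹ := by group
      _ = h * k := by rw [hwg]; group
  have h2 : h⁻¹ * (w * h * w⁻¹) = k * (w * k * w⁻¹)⁻¹ := by
    calc h⁻¹ * (w * h * w⁻¹) = h⁻¹ * ((w * h * w⁻¹) * (w * k * w⁻¹)) * (w * k * w⁻¹)⁻¹ := by group
      _ = h⁻¹ * (h * k) * (w * k * w⁻¹)⁻¹ := by rw [h1]
      _ = k * (w * k * w⁻¹)⁻¹ := by group
  have h3 : h⁻¹ * (w * h * w⁻¹) ∈ N := N.mul_mem (N.inv_mem hh) (hN.conj_mem h hh w)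
  have h4 : h⁻¹ * (w * h * w⁻¹) ∈ Y := by
    rw [h2]
    exact Y.mul_mem hk (Y.inv_mem (hYn.conj_mem k hk w))
  have h5 := hNY _ h3 h4
  have h6 : w * h = h * w := by
    calc w * h = h * (h⁻¹ * (w * h * w⁻¹)) * w := by group
      _ = h * w := by rw [h5, mul_one]
  have h7 : k * (w * k * w⁻¹)⁻¹ = 1 := by rw [← h2, h5]
  have h8 : w * k = k * w := by
    calc w * k = (k * (w * k * w⁻¹)⁻¹)⁻¹ * k * w := by group
      _ = k * w := by rw [h7]; group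
  exact hhfree w ((hmemW w).2 ⟨hwV, h8⟩) hw1 h6

end Cfsg.Agent.Lib.Helper24.Sdk
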