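import Mathlib
import Cfsg.Agent.Lib.Helper24.Sdk.Defs
import Cfsg.Agent.Lib.Helper24.Sdk.NAB1
import Cfsg.Agent.Lib.Helper24.Sdk.NSP
import Cfsg.Agent.Lib.Helper24.Sdk.O2
import Cfsg.Agent.Lib.Helper24.Sdk.SUBN
import Cfsg.Agent.Lib.Helper24.Sdk.SQ

set_option autoImplicit false

namespace Cfsg.Agent.Lib.Helper24.Sdk

universe u

variable {G : Type u} [Group G] [Finite G] {V : Subgroup G}

/-- NAB2 -/
theorem nab_top (hc : Ctx V) (N : Subgroup G) (hN : N.Normal) (hN1 : N ≠ ⊥)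
    (hZ : N ⊓ Subgroup.centralizer (N : Set G) = ⊥) :
    N ⊔ V = ⊤ ∧ Subgroup.centralizer (N : Set G) = ⊥ := by
  have hnz : ∀ X : Subgroup G, Nz X N := fun X x _ y hy => hN.conj_mem y hy x
  have hinf := nab_inf hc N hN hN1 hZ
  have htop : N ⊔ V = ⊤ := by
    by_contra hlt
    obtain ⟨v, hv, h, _, hodd, hinv, hno⟩ := nsp hc N V le_rfl hc.ne (hnz V) hlt
      (subn ⊤ N (o2_top hc) le_top (hnz ⊤)) (by
        intro w hw hcw
        have : w ∈ V ⊓ Subgroup.centralizer (N : Set G) := by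
          refine Subgroup.mem_inf.2 ⟨hw, ?_⟩
          rw [Subgroup.mem_centralizer_iff]
          intro x hx
          exact (hcw x hx).symm
        rwa [hinf, Subgroup.mem_bot] at this)
    obtain ⟨w, hw, hw1, hwh⟩ := hc.sp h v hv hodd hinv
    exact hno w hw hw1 hwh
  refine ⟨htop, ?_⟩
  have hsq : ∀ y ∈ Subgroup.centralizer (N : Set G), y ^ 2 = 1 := by
    intro y hy
    have h1 : y ^ 2 ∈ N := sq_mem hc N V le_rfl (hnz V) y (by rw [htop]; trivial)
    have h2 : y ^ 2 ∈ N ⊓ Subgroup.centralizer (N : Set G) := ⟨h1, pow_mem hy 2⟩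
    rwa [hZ, Subgroup.mem_bot] at h2
  apply o2_top hc _ le_top
  · intro y
    refine ⟨1, ?_⟩
    apply Subtype.ext
    rw [pow_one, Subgroup.coe_pow]
    exact hsq y y.2
  · intro x _ y hy
    rw [Subgroup.mem_centralizer_iff] at hy ⊢
    intro n hn
    have h1 := hy (x⁻¹ * n * x) (by
      have := hN.conj_mem n hn x⁻¹
      simpa using this)
    calc n * (x * y * x⁻¹) = x * ((x⁻¹ * n * x) * y) * x⁻¹ := by group
      _ = x * (y * (x⁻¹ * n * x)) * x⁻¹ := by rw [h1]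
      _ = x * y * x⁻¹ * n := by group

end Cfsg.Agent.Lib.Helper24.Sdk
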