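import Mathlib
import Cfsg.Agent.Lib.Helper24.Sdk.Defs
import Cfsg.Agent.Lib.Helper24.Sdk.NSP
import Cfsg.Agent.Lib.Helper24.Sdk.O2
import Cfsg.Agent.Lib.Helper24.Sdk.SUBN
import Cfsg.Agent.Lib.Helper24.Sdk.GENC
import Cfsg.Agent.Lib.Helper24.Sdk.CDICH

set_option autoImplicit false

namespace Cfsg.Agent.Lib.Helper24.Sdk

universe u

variable {G : Type u} [Group G] [Finite G] {V : Subgroup G}

/-- SIMP1 : a minimal `N`-invariant subgroup `L < N` is normalised by no nontrivial element of `V` -/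
theorem simp_stab (hc : Ctx V) (N : Subgroup G) (hN : N.Normal)
    (hNmin : ∀ B : Subgroup G, B ≤ N → B.Normal → B = ⊥ ∨ B = N)
    (hC : Subgroup.centralizer (N : Set G) = ⊥) (htop : N ⊔ V = ⊤)
    (L : Subgroup G) (hLN : L ≤ N) (hL1 : L ≠ ⊥) (hLne : L ≠ N) (hLn : Nz N L)
    (hLmin : ∀ B : Subgroup G, B ≤ L → Nz N B → B = ⊥ ∨ B = L) :
    ∀ v ∈ V, (∀ y ∈ L, v * y * v⁻¹ ∈ L) → v = 1 := by
  intro v₀ hv₀ hv₀L
  by_contra hv₀1
  have hinvV : ∀ v ∈ V, v⁻¹ = v := by
    intro v hv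
    have := hc.sq v hv
    rw [pow_two] at this
    exact inv_eq_of_mul_eq_one_left this
  -- membership in the stabiliser
  have hmem : ∀ v ∈ V, (∀ y ∈ L, v * y * v⁻¹ ∈ L) → v ∈ V ⊓ Subgroup.normalizer (L : Set G) := by
    intro v hv hvL
    refine Subgroup.mem_inf.2 ⟨hv, ?_⟩
    rw [Subgroup.mem_normalizer_iff]
    intro y
    refine ⟨hvL y, fun hy => ?_⟩
    have h1 := hvL _ hy
    rw [hinvV v hv] at h1
    have h2 : v * v = 1 := by rw [← pow_two]; exact hc.sq v hv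
    have h3 : v * (v * y * v) * v = y := by
      calc v * (v * y * v) * v = (v * v) * y * (v * v) := by group
        _ = y := by rw [h2, one_mul, mul_one]
    rwa [h3] at h1
  have hW : V ⊓ Subgroup.normalizer (L : Set G) ≠ ⊥ := by
    intro hbot
    have := hmem v₀ hv₀ hv₀L
    rw [hbot, Subgroup.mem_bot] at this
    exact hv₀1 this
  have hnorm : Nz (V ⊓ Subgroup.normalizer (L : Set G)) L := fun w hw y hy =>
    (Subgroup.mem_normalizer_iff.1 hw.2 y).1 hy
  have hlt : L ⊔ (V ⊓ Subgroup.normalizer (L : Set G)) ≠ ⊤ := by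
    intro h
    have h1 : (⊤ : Subgroup G) ≤ Subgroup.normalizer (L : Set G) := by
      rw [← h]
      exact sup_le Subgroup.le_normalizer inf_le_right
    have h2 : L.Normal := Subgroup.normalizer_eq_top_iff.1 (top_le_iff.1 h1)
    rcases hNmin L hLN h2 with h3 | h3
    · exact hL1 h3
    · exact hLne h3
  have hO : O2f L := subn N L (subn ⊤ N (o2_top hc) le_top (fun x _ y hy => hN.conj_mem y hy x)) hLN hLn
  have hCW : ∀ w ∈ V ⊓ Subgroup.normalizer (L : Set G), (∀ x ∈ L, w * x = x * w) → w = 1 := by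
    intro w hw hcw
    have h1 : w ∈ Subgroup.centralizer (N : Set G) := by
      apply gen_cent (V := V) N hN hNmin htop L hLN hL1 hLn w
      intro v hv y hy
      have hwv : w * v = v * w := hc.comm w hw.1 v hv
      have hwv' : w * v⁻¹ = v⁻¹ * w := by
        rw [hinvV v hv]; exact hwv
      calc w * (v * y * v⁻¹) = (w * v) * y * v⁻¹ := by group
        _ = v * (w * y) * v⁻¹ := by rw [hwv]; group
        _ = v * y * (w * v⁻¹) := by rw [hcw y hy]; group
        _ = v * y * v⁻¹ * w := by rw [hwv']; group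
    rwa [hC, Subgroup.mem_bot] at h1
  obtain ⟨v, hv, x, hx, hodd, hinv, hno⟩ := nsp hc L _ inf_le_left hW hnorm hlt hO hCW
  have hx1 : x ≠ 1 := by
    rintro rfl
    exact hno v₀ (hmem v₀ hv₀ hv₀L) hv₀1 (by simp)
  obtain ⟨w, hw, hw1, hwx⟩ := hc.sp x v hv.1 hodd hinv
  have hwx' : w * x * w⁻¹ = x := by rw [hwx]; group
  rcases conj_dich N hN L hLN hLn hLmin w with h | ⟨h, -⟩
  · exact hno w (hmem w hw h) hw1 hwx
  · exact hx1 (h x hx (by rw [hwx']; exact hx))

end Cfsg.Agent.Lib.Helper24.Sdk
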