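import Mathlib
import Cfsg.Agent.Lib.Helper24.Sdk.Defs
import Cfsg.Agent.Lib.Helper24.Sdk.O2
import Cfsg.Agent.Lib.Helper24.Sdk.SUBN
import Cfsg.Agent.Lib.Helper24.Sdk.GENC
import Cfsg.Agent.Lib.Helper24.Sdk.CDICH

set_option autoImplicit false

namespace Cfsg.Agent.Lib.Helper24.Sdk

universe u

variable {G : Type u} [Group G] [Finite G] {V : Subgroup G}

/-- a subgroup all of whose odd order elements are trivial is a `2`-group -/
theorem isPGroup_two_of_odd_trivial (L : Subgroup G)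
    (h : ∀ x ∈ L, Odd (orderOf x) → x = 1) : IsPGroup 2 L := by
  intro y
  obtain ⟨k, m, hm, hy⟩ := Nat.exists_eq_two_pow_mul_odd (orderOf_pos (y : G)).ne'
  refine ⟨k, ?_⟩
  apply Subtype.ext
  have h1 : orderOf ((y : G) ^ (2 ^ k)) = m := by
    rw [orderOf_pow_of_dvd (by positivity) ⟨m, hy⟩, hy]
    exact Nat.mul_div_cancel_left m (by positivity)
  exact h _ (L.pow_mem y.2 _) (h1 ▸ hm)

/-- SIMP2 -/
theorem simp_false (hc : Ctx V) (N : Subgroup G) (hN : N.Normal)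
    (hNmin : ∀ B : Subgroup G, B ≤ N → B.Normal → B = ⊥ ∨ B = N)
    (hC : Subgroup.centralizer (N : Set G) = ⊥) (htop : N ⊔ V = ⊤)
    (L : Subgroup G) (hLN : L ≤ N) (hL1 : L ≠ ⊥) (hLn : Nz N L)
    (hLmin : ∀ B : Subgroup G, B ≤ L → Nz N B → B = ⊥ ∨ B = L)
    (hstab : ∀ v ∈ V, (∀ y ∈ L, v * y * v⁻¹ ∈ L) → v = 1) : False := by
  obtain ⟨⟨v, hv⟩, hv1'⟩ := (Subgroup.ne_bot_iff_exists_ne_one).mp hc.ne
  have hv1 : v ≠ 1 := fun h => hv1' (Subtype.ext h)
  have hcd : ∀ u ∈ V, u ≠ 1 → (∀ y ∈ L, u * y * u⁻¹ ∈ L → y = 1) ∧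
      ∀ y ∈ L, ∀ y' ∈ L, y * (u * y' * u⁻¹) = (u * y' * u⁻¹) * y := by
    intro u hu hu1
    rcases conj_dich N hN L hLN hLn hLmin u with h | h
    · exact absurd (hstab u hu h) hu1
    · exact h
  have hON : O2f N := subn ⊤ N (o2_top hc) le_top (fun x _ y hy => hN.conj_mem y hy x)
  obtain ⟨x, hxL, hxodd, hx1⟩ : ∃ x ∈ L, Odd (orderOf x) ∧ x ≠ 1 := by
    by_contra hcon
    push Not at hcon
    exact hL1 (hON L hLN (isPGroup_two_of_odd_trivial L hcon) hLn)
  have hinvV : ∀ u ∈ V, u⁻¹ = u := by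
    intro u hu
    rw [inv_eq_iff_mul_eq_one, ← sq]; exact hc.sq u hu
  have hvv : v * v = 1 := by rw [← sq]; exact hc.sq v hv
  obtain ⟨x', hx'⟩ : ∃ x', x' = v * x * v⁻¹ := ⟨_, rfl⟩
  have hcomm : Commute x x' := by rw [hx']; exact (hcd v hv hv1).2 x hxL x hxL
  obtain ⟨h, hh⟩ : ∃ h, h = x⁻¹ * x' := ⟨_, rfl⟩
  have hinv : v * h * v⁻¹ = h⁻¹ := by
    have e1 : v * x' * v⁻¹ = x := by
      rw [hx', hinvV v hv]
      calc v * (v * x * v) * v = (v * v) * x * (v * v) := by group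
        _ = x := by rw [hvv]; simp
    calc v * h * v⁻¹ = (v * x * v⁻¹)⁻¹ * (v * x' * v⁻¹) := by rw [hh]; group
      _ = x'⁻¹ * x := by rw [e1, ← hx']
      _ = h⁻¹ := by rw [hh, mul_inv_rev, inv_inv]
  have hox' : x' ^ (orderOf x) = 1 := by
    rw [hx', conj_pow, pow_orderOf_eq_one]; simp
  have hhodd : Odd (orderOf h) := by
    have hpow : h ^ (orderOf x) = 1 := by
      rw [hh, (hcomm.inv_left).mul_pow, inv_pow, pow_orderOf_eq_one, hox']
      simp
    exact Odd.of_dvd_nat hxodd (orderOf_dvd_of_pow_eq_one hpow)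
  obtain ⟨w, hw, hw1, hwh⟩ := hc.sp h v hv hhodd hinv
  by_cases hwv : w = v
  · subst hwv
    have e1 : w * h * w⁻¹ = h := by rw [hwh]; group
    rw [hinv] at e1
    have e2 : h ^ 2 = 1 := by
      rw [sq]
      calc h * h = h⁻¹ * h := by rw [e1]
        _ = 1 := by group
    have e3 : orderOf h ∣ 2 := orderOf_dvd_of_pow_eq_one e2
    have e4 : orderOf h = 1 := by
      rcases (Nat.dvd_prime Nat.prime_two).mp e3 with h1 | h1
      · exact h1
      · rw [h1] at hhodd; exact absurd hhodd (by decide)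
    rw [orderOf_eq_one_iff, hh, inv_mul_eq_one] at e4
    apply hx1
    apply (hcd w hw hw1).1 x hxL
    rw [← hx', ← e4]; exact hxL
  · have hwv1 : w * v ≠ 1 := by
      intro h1
      apply hwv
      rw [← hinvV v hv]; exact eq_inv_of_mul_eq_one_left h1
    have hwvV : w * v ∈ V := V.mul_mem hw hv
    have e1 : w * h * w⁻¹ = h := by rw [hwh]; group
    have e2 : x⁻¹ = (w * x⁻¹ * w⁻¹) * ((w * v) * x * (w * v)⁻¹) * (v * x⁻¹ * v⁻¹) := by
      have : (w * x⁻¹ * w⁻¹) * ((w * v) * x * (w * v)⁻¹) = w * h * w⁻¹ := by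
        rw [hh, hx']; group
      rw [this, e1, hh, hx']; group
    have hxinvL : x⁻¹ ∈ L := L.inv_mem hxL
    have hxc : x ∈ Subgroup.centralizer (N : Set G) := by
      apply gen_cent N hN hNmin htop L hLN hL1 hLn x
      intro u hu y hy
      by_cases hu1 : u = 1
      · subst hu1
        simp only [one_mul, inv_one, mul_one]
        have c1 : Commute y (w * x⁻¹ * w⁻¹) := (hcd w hw hw1).2 y hy x⁻¹ hxinvL
        have c2 : Commute y ((w * v) * x * (w * v)⁻¹) := (hcd _ hwvV hwv1).2 y hy x hxL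
        have c3 : Commute y (v * x⁻¹ * v⁻¹) := (hcd v hv hv1).2 y hy x⁻¹ hxinvL
        have c4 : Commute y x⁻¹ := by
          rw [e2]; exact (c1.mul_right c2).mul_right c3
        have c5 : Commute y x := by simpa using c4.inv_right
        exact c5.symm.eq
      · exact (hcd u hu hu1).2 x hxL y hy
    rw [hC] at hxc
    exact hx1 (Subgroup.mem_bot.mp hxc)

end Cfsg.Agent.Lib.Helper24.Sdk
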