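import Mathlib
import Cfsg.Agent.Lib.Helper24.Sdk.Defs
import Cfsg.Agent.Lib.Helper24.Sdk.SIMP1
import Cfsg.Agent.Lib.Helper24.Sdk.SIMP2

set_option autoImplicit false

namespace Cfsg.Agent.Lib.Helper24.Sdk

universe u

variable {G : Type u} [Group G] [Finite G] {V : Subgroup G}

/-- SIMP -/
theorem simp_main (hc : Ctx V) (N : Subgroup G) (hN : N.Normal) (hN1 : N ≠ ⊥)
    (hNmin : ∀ B : Subgroup G, B ≤ N → B.Normal → B = ⊥ ∨ B = N)
    (hC : Subgroup.centralizer (N : Set G) = ⊥) (htop : N ⊔ V = ⊤) : IsSimpleGroup N := by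
  have hne : {L : Subgroup G | L ≤ N ∧ L ≠ ⊥ ∧ Nz N L}.Nonempty :=
    ⟨N, le_rfl, hN1, fun x hx y hy => N.mul_mem (N.mul_mem hx hy) (N.inv_mem hx)⟩
  obtain ⟨L, hL, hmin⟩ := WellFounded.has_min (wellFounded_lt (α := Subgroup G)) _ hne
  have hLmin : ∀ B : Subgroup G, B ≤ L → Nz N B → B = ⊥ ∨ B = L := by
    intro B hB hBn
    by_cases hB1 : B = ⊥
    · left; exact hB1
    · right
      by_contra hne
      exact hmin B ⟨hB.trans hL.1, hB1, hBn⟩ (lt_of_le_of_ne hB hne)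
  by_cases hLN : L = N
  · rw [hLN] at hLmin
    haveI : Nontrivial N := (Subgroup.nontrivial_iff_ne_bot N).mpr hN1
    refine { toNontrivial := inferInstance, eq_bot_or_eq_top_of_normal := fun H hH => ?_ }
    have hn : Nz N (H.map N.subtype) := by
      intro x hx z hz
      obtain ⟨y, hy, rfl⟩ := Subgroup.mem_map.mp hz
      exact Subgroup.mem_map.mpr ⟨⟨x, hx⟩ * y * ⟨x, hx⟩⁻¹, hH.conj_mem y hy ⟨x, hx⟩, rfl⟩
    rcases hLmin (H.map N.subtype) (Subgroup.map_subtype_le H) hn with h | h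
    · left
      exact (Subgroup.map_eq_bot_iff_of_injective H N.subtype_injective).mp h
    · right
      rw [eq_top_iff]
      intro x _
      have hx : x.1 ∈ H.map N.subtype := by rw [h]; exact x.2
      obtain ⟨y, hy, hyx⟩ := Subgroup.mem_map.mp hx
      have : y = x := Subtype.ext hyx
      rwa [← this]
  · exfalso
    exact simp_false hc N hN hNmin hC htop L hL.1 hL.2.1 hL.2.2 hLmin
      (simp_stab hc N hN hNmin hC htop L hL.1 hL.2.1 hLN hL.2.2 hLmin)

end Cfsg.Agent.Lib.Helper24.Sdk
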