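import Mathlib
import Cfsg.Agent.Lib.Helper24.Sdk.Defs
import Cfsg.Agent.Lib.Helper24.Sdk.MNS
import Cfsg.Agent.Lib.Helper24.Sdk.AB1
import Cfsg.Agent.Lib.Helper24.Sdk.AB2
import Cfsg.Agent.Lib.Helper24.Sdk.AB3
import Cfsg.Agent.Lib.Helper24.Sdk.AB4
import Cfsg.Agent.Lib.Helper24.Sdk.NAB2
import Cfsg.Agent.Lib.Helper24.Sdk.SIMP
import Cfsg.Agent.Lib.Helper24.Sdk.FSTAR

set_option autoImplicit false

namespace Cfsg.Agent.Lib.Helper24.Sdk

universe u

variable {G : Type u} [Group G] [Finite G] {V : Subgroup G}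

/-- MAIN -/
theorem main (hc : Ctx V) : IsSimpleGroup ↥(Cfsg.generalizedFittingSubgroup G) ∧
    ¬ IsMulCommutative ↥(Cfsg.generalizedFittingSubgroup G) ∧
    V ⊔ Cfsg.generalizedFittingSubgroup G = ⊤ := by
  have hG : (⊤ : Subgroup G) ≠ ⊥ := by
    intro h
    apply hc.ne
    rw [eq_bot_iff, ← h]; exact le_top
  obtain ⟨N, hN, hN1, hNmin⟩ := exists_min_normal hG
  by_cases hab : ∀ a ∈ N, ∀ b ∈ N, a * b = b * a
  · exfalso
    have hd := ab_dich hc N hN hab hNmin
    by_cases hall : ∀ v ∈ V, ∀ a ∈ N, v * a = a * v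
    · apply ab_central_false hc N hN1
      have hVC : V ≤ Subgroup.centralizer (N : Set G) := by
        intro v hv
        refine Subgroup.mem_centralizer_iff.mpr ?_
        intro a ha
        exact (hall v hv a ha).symm
      have htop := ab_sup hc N hN hab
      rw [sup_eq_left.mpr hVC] at htop
      intro a ha
      rw [Subgroup.mem_center_iff]
      intro g
      have : g ∈ Subgroup.centralizer (N : Set G) := by rw [htop]; trivial
      exact ((Subgroup.mem_centralizer_iff.mp this) a ha).symm
    · push Not at hall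
      obtain ⟨v₀, hv₀, a, ha, hne⟩ := hall
      exact ab_invert_false hc N hN hN1 hab hd v₀ hv₀ (fun h => hne (h a ha))
  · have hZ : N ⊓ Subgroup.centralizer (N : Set G) = ⊥ := by
      have hn : (N ⊓ Subgroup.centralizer (N : Set G)).Normal := by
        have : (Subgroup.centralizer (N : Set G)).Normal := inferInstance
        infer_instance
      rcases hNmin _ inf_le_left hn with h | h
      · exact h
      · exfalso
        apply hab
        intro a ha b hb
        have hle : N ≤ Subgroup.centralizer (N : Set G) := inf_eq_left.mp h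
        have hb' : b ∈ Subgroup.centralizer (N : Set G) := hle hb
        exact (Subgroup.mem_centralizer_iff.mp hb') a ha
    obtain ⟨htop, hC⟩ := nab_top hc N hN hN1 hZ
    have hs := simp_main hc N hN hN1 hNmin hC htop
    have hF := fstar N hN hs hab hC hc.comm htop
    rw [hF]
    refine ⟨hs, ?_, by rw [sup_comm]; exact htop⟩
    intro hcm
    apply hab
    intro a ha b hb
    exact congrArg Subtype.val (hcm.is_comm.comm (⟨a, ha⟩ : N) ⟨b, hb⟩)

end Cfsg.Agent.Lib.Helper24.Sdk
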